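import Cfsg.Agent.H350.Tri.Defs
import Cfsg.Agent.CpAutTri.FinD
import Cfsg.Agent.H28.FamFour

/-!
# S2187, TRI-10: the automorphisms of order 3 of `D₄(q)` over the algebraic closure
-/

set_option autoImplicit false
set_option linter.unusedSectionVars false

namespace Cfsg.Agent.H388.Tri.Lift

open CoxeterSystem Subgroup Cfsg Cfsg.Lie Cfsg.Lie.ChevalleyDatum
open Cfsg.Agent.ChevalleyStructure Cfsg.Agent.ChevalleyStructure.Elts Cfsg.Agent.ChevalleyStructure.CoxeterGeom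
  Cfsg.Agent.ChevalleyStructure.CoxeterGeomTypes Cfsg.Agent.ChevalleyStructure.NPerm
open Cfsg.Agent.ChevalleyStructure.GraphSymm (symmD4a)
open Cfsg.Agent.Tits.Roots Cfsg.Agent.Tits.Core Cfsg.Agent.Nodes.Reps Cfsg.Agent.Nodes.BNOf
  Cfsg.Agent.Nodes.RGDChev Cfsg.Agent.Nodes.Bruhat Cfsg.Agent.Nodes.OppDec
open Cfsg.Agent.KFacts.RgdAut Cfsg.Agent.KFacts.RgdDiag Cfsg.Agent.KFacts.RgdRigid
  Cfsg.Agent.KFacts.RgdField Cfsg.Agent.KFacts.RgdTau Cfsg.Agent.KFacts.RgdChevCoord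
  Cfsg.Agent.CpAut.RgdUntw Cfsg.Agent.CpAut.RgdConj
open Cfsg.Agent.GpExc.Field (glMap emb coe_emb glMap_xG emb_injective coe_glMap)
open Cfsg.Agent.BpExc.FamExt Cfsg.Agent.BpExc.FamFrame Cfsg.Agent.BpExc.FamField Cfsg.Agent.BpExc.FamUntw
  Cfsg.Agent.BpExc.TowChev
open Cfsg.Agent.BpExc.FamTw.Gr
open Cfsg.Agent.CpAutTri.StdD (s0 spF spF_eq rho_spF sym_cases cartan_s0 vec_spF isRoot_s exists_s vec_pos vec_npos
  cube_of_pow)
open Cfsg.Agent.CpAutTri.Bru (rho eps rho_pos)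
open Cfsg.Agent.H469.Exc (KK)
open Cfsg.Agent.H350.Tri (Y4 gr4)

universe u

local notation "hp4" => Cfsg.Agent.Nodes.RGDTwD4.hp

/-! ### the graph automorphism over a finite field -/

section Fin

variable {K : Type u} [Field K]

/-- the triality of `chevD4.group K` -/
noncomputable abbrev gam (K : Type u) [Field K] : MulAut ↥(chevD4.group K) := gr (L := K) (hp4).inList symmD4a

theorem xc_eq (s : Fin 24) (a : K) : xc hp4 (vec chevD4 4 s.val) a = xg (hp4).inList s.val a := by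
  apply Subtype.ext
  rw [coe_xc hp4 s.2]
  rfl

theorem gam_xc (s : Fin 24) (a : K) : gam K (xc hp4 (vec chevD4 4 s.val) a) =
    xc hp4 (vec chevD4 4 (rho s).val) (((eps s : ℤ) : K) * a) := by
  rw [xc_eq, xc_eq]
  exact gr_xg (hp4).inList symmD4a s a

theorem gam_cube : gam K ^ 3 = 1 := Cfsg.Agent.H28.FamFour.gr_cube_D4

theorem fix_of_maps {γ : MulAut ↥(chevD4.group K)} (hγ : γ ^ 3 = 1) {H : Subgroup ↥(chevD4.group K)}
    (h : ∀ y ∈ H, γ y ∈ H) : Fix γ H := by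
  intro y
  refine ⟨fun hy => ?_, h y⟩
  have h1 : γ (γ (γ y)) ∈ H := h _ (h _ hy)
  have e : γ (γ (γ y)) = y := DFunLike.congr_fun hγ y
  rwa [e] at h1

variable [Finite K] (r : ℕ) [Fact r.Prime] [CharP K r]

include r in
theorem gam_maps {S : Set (Fin 4 → ℤ)}
    (hS : ∀ x ∈ S, ∃ s : Fin 24, x = vec chevD4 4 s.val ∧ vec chevD4 4 (rho s).val ∈ S) {y : ↥(chevD4.group K)}
    (hy : y ∈ RGD.Sup (XX chevD4 4 K) S) : gam K y ∈ RGD.Sup (XX chevD4 4 K) S := by
  have C := coords (K := K) hp4 coxeterD4.toCoxeterSystem r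
  have key : RGD.Sup (XX chevD4 4 K) S ≤ (RGD.Sup (XX chevD4 4 K) S).comap (gam K).toMonoidHom := by
    refine RGD.Sup_le fun x hx z hz => ?_
    obtain ⟨s, rfl, hs⟩ := hS x hx
    obtain ⟨a, rfl⟩ := ((C.coord _ (isRoot_s _ s)).mem z).1 hz
    show gam K (xc hp4 (vec chevD4 4 s.val) a) ∈ RGD.Sup (XX chevD4 4 K) S
    rw [gam_xc]
    exact RGD.le_Sup hs (((C.coord _ (isRoot_s _ _)).mem _).2 ⟨_, rfl⟩)
  exact key hy

include r in
theorem gam_fix_U :
    Fix (gam K) (RGD.Sup (XX chevD4 4 K) (RGD.Pos coxeterD4.toCoxeterSystem (hp4).isCartan)) := by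
  refine fix_of_maps gam_cube fun y hy => gam_maps r ?_ hy
  rintro x ⟨hx, hx0⟩
  obtain ⟨s, rfl⟩ := exists_s _ hx
  refine ⟨s, rfl, isRoot_s _ _, ?_⟩
  exact (vec_pos _).2 ((rho_pos s).2 ((vec_pos s).1 hx0))

include r in
theorem gam_fix_UN :
    Fix (gam K) (UN coxeterD4.toCoxeterSystem (hp4).isCartan (XX chevD4 4 K)) := by
  refine fix_of_maps gam_cube fun y hy => gam_maps r ?_ hy
  rintro x ⟨hx, hx0⟩
  obtain ⟨s, rfl⟩ := exists_s _ hx
  refine ⟨s, rfl, isRoot_s _ _, ?_⟩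
  have h1 := (vec_npos s).1 hx0
  have h2 := rho_pos s
  exact (vec_npos _).2 (by omega)

include r in
/-- the diagram symmetry and the field automorphism of `gam` -/
theorem tau_gam : Tau (TT chevD4 K) (XX chevD4 4 K) (ch hp4) (cartanOf chevD4 4) (gam K) s0 (1 : K ≃+* K) := by
  have R := rgd (K := K) hp4 coxeterD4.toCoxeterSystem r
  have hW := finite_W hp4 (coxeterD4.toCoxeterSystem)
  have hG1 : RGD.Sup (XX chevD4 4 K) {x | IsRoot coxeterD4.toCoxeterSystem (hp4).isCartan x} = ⊤ :=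
    G1_eq_top hp4 coxeterD4.toCoxeterSystem
  have C := coords (K := K) hp4 coxeterD4.toCoxeterSystem r
  have H := coroots (K := K) hp4 coxeterD4.toCoxeterSystem r
  obtain ⟨hs, hc⟩ := Cfsg.Agent.CpAut.RgdD4.simple_D4 (F := K)
  have hconn := KFacts.RgdLieCharP.conn_of_simple R hG1 (KFacts.RgdLieCharP.center_eq_bot hc)
  obtain ⟨σ, D⟩ := exists_diag R (GG_eq_top (T := TT chevD4 K) hG1) (gam_fix_U r) (gam_fix_UN r)
  have hσ : σ = s0 := by
    ext i
    congr 1
    by_contra hne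
    have hi := isRoot_sr coxeterD4.toCoxeterSystem (hp4).isCartan i
    have hx : xc hp4 (sr i) (1 : K) ∈ XX chevD4 4 K (sr i) := ((C.coord _ hi).mem _).2 ⟨1, rfl⟩
    have hx1 := (C.coord _ hi).ne_one (one_ne_zero (α := K))
    have h2 := (D.pos i _).2 hx
    have h3 : gam K (xc hp4 (sr i) (1 : K)) ∈ XX chevD4 4 K (sr (s0 i)) := by
      rw [← vec_spF i, gam_xc, rho_spF, vec_spF]
      exact ((C.coord _ (isRoot_sr coxeterD4.toCoxeterSystem (hp4).isCartan (s0 i))).mem _).2 ⟨_, rfl⟩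
    have h4 : sr (σ i) ≠ (sr (s0 i) : Fin 4 → ℤ) := by
      intro h5
      have h6 := congrFun h5 (σ i)
      rw [sr_self, sr_ne hne] at h6
      exact one_ne_zero h6
    have h5 := X_inf_X R (isRoot_sr coxeterD4.toCoxeterSystem (hp4).isCartan (σ i))
      (isRoot_sr coxeterD4.toCoxeterSystem (hp4).isCartan (s0 i)) h4
    rw [Subgroup.eq_bot_iff_forall] at h5
    exact hx1 ((gam K).injective (by rw [h5 _ ⟨h2, h3⟩, map_one]))
  subst hσ
  obtain ⟨τ', hτ'⟩ := exists_tau R C H hconn D cartan_s0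
  have h1 := isRoot_sr coxeterD4.toCoxeterSystem (hp4).isCartan (1 : Fin 4)
  obtain ⟨c, hc0, e⟩ := Tau.root R C hτ' h1
  have e' : ∀ a, c * τ' a = a := by
    intro a
    have h2 := e a
    rw [sr_comp] at h2
    have e1 : s0 1 = 1 := by decide
    have e2 : rho (spF 1) = spF 1 := by decide +kernel
    have e3 : eps (spF 1) = 1 := by decide +kernel
    rw [e1, ← vec_spF 1, gam_xc, e2, e3, Int.cast_one, one_mul] at h2
    exact ((C.coord _ (isRoot_s _ _)).inj h2).symm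
  have hc1 : c = 1 := by
    have := e' 1
    rwa [map_one, mul_one] at this
  have hττ' : τ' = 1 := by
    ext a
    have := e' a
    rw [hc1, one_mul] at this
    exact this
  rw [hττ'] at hτ'
  exact hτ'

theorem s0_cube : s0 ^ 3 = 1 := by decide

theorem s0_inv : s0⁻¹ = s0 ^ 2 := by decide

include r in
/-- **the frame form of an automorphism of order 3** -/
theorem exists_frame {x : MulAut ↥(chevD4.group K)} (hx : x ^ 3 = 1) :
    ∃ (g : ↥(chevD4.group K)) (i : ℕ) (τ : K ≃+* K),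
      Tau (TT chevD4 K) (XX chevD4 4 K) (ch hp4) (cartanOf chevD4 4) (MulAut.conj g * x) (s0 ^ i) τ ∧ τ ^ 3 = 1 := by
  have R := rgd (K := K) hp4 coxeterD4.toCoxeterSystem r
  have hW := finite_W hp4 (coxeterD4.toCoxeterSystem)
  have hG1 : RGD.Sup (XX chevD4 4 K) {x | IsRoot coxeterD4.toCoxeterSystem (hp4).isCartan x} = ⊤ :=
    G1_eq_top hp4 coxeterD4.toCoxeterSystem
  have hG := GG_eq_top (T := TT chevD4 K) hG1
  have C := coords (K := K) hp4 coxeterD4.toCoxeterSystem r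
  have H := coroots (K := K) hp4 coxeterD4.toCoxeterSystem r
  obtain ⟨hs, hc⟩ := Cfsg.Agent.CpAut.RgdD4.simple_D4 (F := K)
  have hconn := KFacts.RgdLieCharP.conn_of_simple R hG1 (KFacts.RgdLieCharP.center_eq_bot hc)
  obtain ⟨g, h1, h2, σ, D⟩ := exists_frame_any R hG x
  obtain ⟨g', e⟩ := exists_conj_pow g x 3
  rw [hx, mul_one] at e
  have hpow : ∀ {S : Subgroup ↥(chevD4.group K)}, Fix (MulAut.conj g * x) S → Fix ((MulAut.conj g * x) ^ 3) S := by
    intro S hS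
    generalize 3 = k
    induction k with
    | zero => intro y; rw [pow_zero]; exact Iff.rfl
    | succ k ih => rw [pow_succ]; exact ih.mul hS
  have hg' : g' ∈ TT chevD4 K := by
    refine mem_T_of_frame R hG ?_ ?_
    · rw [← e]; exact hpow h1
    · rw [← e]; exact hpow h2
  have hσm : σ ^ 3 = 1 := by
    have h3 := D.pow 3
    rw [e] at h3
    have h4 := h3.mul (diag_conj R (inv_mem hg'))
    rw [← map_mul, mul_inv_cancel, map_one, mul_one] at h4
    ext i
    obtain ⟨u, hu, hu1⟩ := exists_ne_one R i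
    exact congrArg Fin.val (Diag.apply_eq R h4 hu hu1 rfl)
  obtain ⟨i, rfl⟩ : ∃ i : ℕ, σ = s0 ^ i := by
    by_cases h0 : σ = 1
    · exact ⟨0, by rw [h0, pow_zero]⟩
    · rcases sym_cases σ (D.matrix R) hσm h0 with h | h
      · exact ⟨1, by rw [h, pow_one]⟩
      · exact ⟨2, by rw [h, s0_inv]⟩
  have hA : ∀ a b, cartanOf chevD4 4 ((s0 ^ i) a) ((s0 ^ i) b) = cartanOf chevD4 4 a b :=
    ((tau_gam (K := K) r).pow i).cartan
  obtain ⟨τ, hτ⟩ := exists_tau R C H hconn D hA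
  refine ⟨g, i, τ, hτ, ?_⟩
  have h3 := hτ.pow 3
  rw [e] at h3
  exact (Tau.unique R C h3 (tau_conj R C hg')).2

end Fin

/-! ### the lift -/

section Lift

variable {F : Type u} [Field F] [Finite F] {k : Type u} [Field k] (r : ℕ) [Fact r.Prime] [CharP F r] (f : F →+* k)

theorem emb_gam (a : ↥(chevD4.group F)) : emb (hp4).inList f (gam F a) = gam k (emb (hp4).inList f a) := by
  apply Subtype.ext
  rw [coe_emb, coe_gr, coe_gr, map_mul, map_mul, map_inv, glMap_P, coe_emb]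

theorem emb_gam_pow (j : ℕ) (a : ↥(chevD4.group F)) :
    emb (hp4).inList f ((gam F ^ j) a) = (gam k ^ j) (emb (hp4).inList f a) := by
  induction j generalizing a with
  | zero => rfl
  | succ j ih => rw [pow_succ, MulAut.mul_apply, ih, emb_gam, pow_succ, MulAut.mul_apply]

theorem fld_gam_pow (τ : k ≃+* k) (j : ℕ) (a : ↥(chevD4.group k)) :
    fld chevD4 τ ((gam k ^ j) a) = (gam k ^ j) (fld chevD4 τ a) := by
  induction j generalizing a with
  | zero => rfl
  | succ j ih => rw [pow_succ, MulAut.mul_apply, ih, ← gr_fld, MulAut.mul_apply]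

theorem inv_D4 : InvC chevD4 4 2 Cfsg.Agent.H28.FamFour.B4 := by
  unfold InvC
  decide +kernel

include r in
theorem lift_aux [IsAlgClosed k] {x : MulAut ↥(chevD4.group F)} {g : ↥(chevD4.group F)} {i : ℕ} {τ : F ≃+* F}
    (S : Tau (TT chevD4 F) (XX chevD4 4 F) (ch hp4) (cartanOf chevD4 4) (MulAut.conj g * x) (s0 ^ i) τ) (c : ℕ)
    {τ' : k ≃+* k} (hτ' : ∀ a, τ' (f a) = f ((τ ^ c) a)) :
    ∃ z : ↥(chevD4.group k), ∀ a, emb (hp4).inList f ((x ^ c) a) =
      z * (gam k ^ (i * c)) (fld chevD4 τ' (emb (hp4).inList f a)) * z⁻¹ := by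
  have R := rgd (K := F) hp4 coxeterD4.toCoxeterSystem r
  have hG1 : RGD.Sup (XX chevD4 4 F) {x | IsRoot coxeterD4.toCoxeterSystem (hp4).isCartan x} = ⊤ :=
    G1_eq_top hp4 coxeterD4.toCoxeterSystem
  obtain ⟨hs, hc⟩ := Cfsg.Agent.CpAut.RgdD4.simple_D4 (F := F)
  have hconn := KFacts.RgdLieCharP.conn_of_simple R hG1 (KFacts.RgdLieCharP.center_eq_bot hc)
  obtain ⟨g', e⟩ := exists_conj_pow g x c
  have S1 := S.pow c
  rw [e] at S1
  have S2 := S1.mul ((tau_gam (K := F) r).pow (i * c)).inv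
  rw [← pow_mul, mul_inv_cancel, one_pow, inv_one, mul_one] at S2
  obtain ⟨t, ht, et⟩ := exists_ext hp4 f r hconn inv_D4 two_ne_zero
    (fun c _ => IsAlgClosed.exists_pow_nat_eq (f c) two_pos) S2 hτ'
  refine ⟨(emb (hp4).inList f g')⁻¹ * t, fun a => ?_⟩
  have h1 := et ((gam F ^ (i * c)) a)
  rw [MulAut.mul_apply, MulAut.inv_apply_self, MulAut.mul_apply, MulAut.conj_apply, map_mul, map_mul, map_inv,
    emb_gam_pow, fld_gam_pow] at h1
  have h2 : emb (hp4).inList f ((x ^ c) a) = (emb (hp4).inList f g')⁻¹ * (emb (hp4).inList f g' *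
    emb (hp4).inList f ((x ^ c) a) * (emb (hp4).inList f g')⁻¹) * emb (hp4).inList f g' := by group
  rw [h2, h1]
  group

end Lift

/-! ### the theorem -/

section Main

variable {r : ℕ} [Fact r.Prime]

theorem center_bot (k : Type u) [Field k] : center ↥(chevD4.group k) = ⊥ := by
  obtain ⟨hs, hc⟩ := Cfsg.Agent.CpAut.RgdD4.simple_D4 (F := k)
  exact KFacts.RgdLieCharP.center_eq_bot hc

/-- **TRI-10.** -/
theorem lift_D4' {F : Type} [Field F] [Fintype F] [CharP F r] {n : ℕ} (hn : Fintype.card F = r ^ n)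
    (f : F →+* KK r) {x : MulAut ↥(chevD4.group F)} (hx : x ^ 3 = 1) :
    ∃ (c i m : ℕ) (y : Y4 r), c.Coprime 3 ∧ (m = 0 ∨ n = 3 * m) ∧ phi chevD4 (KK r) r n y = y ∧
      ∀ a, emb (hp4).inList f ((x ^ c) a) =
        y * (gr4 r ^ i) (phi chevD4 (KK r) r m (emb (hp4).inList f a)) * y⁻¹ := by
  have hn' : Nat.card F = r ^ n := by rw [Nat.card_eq_fintype_card, hn]
  have hk : LocFin (KK r) := locFin_of_isAlgebraic r _
  obtain ⟨g, i, τ, S, hτ3⟩ := exists_frame r hx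
  have key : ∀ (c m : ℕ), (∀ a, frb (KK r) r m (f a) = f ((τ ^ c) a)) → ∃ y : Y4 r, phi chevD4 (KK r) r n y = y ∧
      ∀ a, emb (hp4).inList f ((x ^ c) a) =
        y * (gr4 r ^ (i * c)) (phi chevD4 (KK r) r m (emb (hp4).inList f a)) * y⁻¹ := by
    intro c m hcm
    obtain ⟨z, hz⟩ := lift_aux r f S c hcm
    refine ⟨z, ?_, hz⟩
    have hcomm : ∀ b : Y4 r, phi chevD4 (KK r) r n ((gam (KK r) ^ (i * c)) (phi chevD4 (KK r) r m b)) =
        (gam (KK r) ^ (i * c)) (phi chevD4 (KK r) r m (phi chevD4 (KK r) r n b)) := by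
      intro b
      have h1 : phi chevD4 (KK r) r n (phi chevD4 (KK r) r m b) = phi chevD4 (KK r) r m (phi chevD4 (KK r) r n b) := by
        show fld chevD4 _ (fld chevD4 _ b) = fld chevD4 _ (fld chevD4 _ b)
        rw [← MulAut.mul_apply, ← MulAut.mul_apply, ← fld_mul, ← fld_mul]
        congr 2
        ext a
        rw [RingAut.mul_apply, RingAut.mul_apply, frb_apply, frb_apply, frb_apply, frb_apply, ← pow_mul, ← pow_mul,
          mul_comm]
      have h2 := fld_gam_pow (k := KK r) (frb (KK r) r n) (i * c) (phi chevD4 (KK r) r m b)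
      rw [← h1]
      exact h2
    obtain ⟨w, hw⟩ : ∃ w : Y4 r, (gam (KK r) ^ (i * c)) (phi chevD4 (KK r) r m w) = z⁻¹ * phi chevD4 (KK r) r n z :=
      ⟨(phi chevD4 (KK r) r m).symm ((gam (KK r) ^ (i * c)).symm (z⁻¹ * phi chevD4 (KK r) r n z)), by
        rw [MulEquiv.apply_symm_apply, MulEquiv.apply_symm_apply]⟩
    have hw1 : w = 1 := by
      refine eq_one_of_comm hp4 hk r f (center_bot _) fun a => ?_
      apply (phi chevD4 (KK r) r m).injective
      apply (gam (KK r) ^ (i * c)).injective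
      rw [map_mul, map_mul, map_mul, map_mul, hw]
      have h1 := hz a
      have h2 := congrArg (phi chevD4 (KK r) r n) h1
      rw [phi_emb hp4 r f hn', map_mul, map_mul, map_inv, h1] at h2
      have h3 := hcomm (emb (hp4).inList f a)
      rw [phi_emb hp4 r f hn'] at h3
      have h4 : phi chevD4 (KK r) r n ((gam (KK r) ^ (i * c)) (fld chevD4 (frb (KK r) r m) (emb (hp4).inList f a))) =
        (gam (KK r) ^ (i * c)) (fld chevD4 (frb (KK r) r m) (emb (hp4).inList f a)) := h3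
      rw [h4] at h2
      have h5 : z * (gam (KK r) ^ (i * c)) (phi chevD4 (KK r) r m (emb (hp4).inList f a)) * z⁻¹ =
        phi chevD4 (KK r) r n z * (gam (KK r) ^ (i * c)) (phi chevD4 (KK r) r m (emb (hp4).inList f a)) *
          (phi chevD4 (KK r) r n z)⁻¹ := h2
      generalize (gam (KK r) ^ (i * c)) (phi chevD4 (KK r) r m (emb (hp4).inList f a)) = b at h5 ⊢
      generalize phi chevD4 (KK r) r n z = z' at h5 ⊢
      have h6 : b = z⁻¹ * (z' * b * z'⁻¹) * z := by rw [← h5]; group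
      calc z⁻¹ * z' * b = z⁻¹ * (z' * b * z'⁻¹) * z * (z⁻¹ * z') := by group
        _ = b * (z⁻¹ * z') := by rw [← h6]
    rw [hw1, map_one, map_one] at hw
    exact (inv_mul_eq_one.1 hw.symm).symm
  by_cases hτ1 : τ = 1
  · subst hτ1
    obtain ⟨y, hy, h⟩ := key 1 0 fun a => by rw [frb_apply, pow_zero, pow_one, pow_one]; rfl
    exact ⟨1, i * 1, 0, y, Nat.coprime_one_left 3, Or.inl rfl, hy, h⟩
  · obtain ⟨c, m, hc, hm0, hcard, hfr⟩ := exists_field r Nat.prime_three hτ3 hτ1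
    have hmn : n = 3 * m := by
      rw [hn'] at hcard
      rw [Nat.pow_right_injective (Fact.out : r.Prime).two_le hcard, mul_comm]
    obtain ⟨y, hy, h⟩ := key c m fun a => by rw [frb_apply, hfr, map_pow]
    exact ⟨c, i * c, m, y, hc, Or.inr hmn, hy, h⟩

/-- **TRI-10**, as in `tools/plans/S2187_tri.lean`. -/
theorem lift_D4 (_hr5 : 5 ≤ r) {F : Type} [Field F] [Fintype F] [CharP F r] {n : ℕ} (hn : Fintype.card F = r ^ n)
    (f : F →+* KK r) {x : MulAut ↥(chevD4.group F)} (hx : orderOf x = 3) :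
    ∃ (c i m : ℕ) (y : Y4 r), c.Coprime 3 ∧ (m = 0 ∨ n = 3 * m) ∧ phi chevD4 (KK r) r n y = y ∧
      ∀ a, emb Cfsg.Agent.Nodes.RGDTwD4.hp.inList f ((x ^ c) a) =
        y * (gr4 r ^ i) (phi chevD4 (KK r) r m (emb Cfsg.Agent.Nodes.RGDTwD4.hp.inList f a)) * y⁻¹ :=
  lift_D4' hn f (by rw [← hx, pow_orderOf_eq_one])

end Main

end Cfsg.Agent.H388.Tri.Lift
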