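import Cfsg.Agent.H388.Tri.Lift
import Cfsg.Agent.H388.Tri.PsiAbs
import Cfsg.Agent.H129.TorusUntw
import Cfsg.Agent.H198.TriTC

/-!
# S2187, TRI-10: the automorphisms of order 3 of `D₄(q)` and the range of `Ψ`
-/

set_option autoImplicit false
set_option linter.unusedSectionVars false
set_option maxHeartbeats 1000000

namespace Cfsg.Agent.H388.Tri.PsiR

open CoxeterSystem Subgroup Cfsg Cfsg.Lie Cfsg.Lie.ChevalleyDatum
open Cfsg.Agent.ChevalleyStructure Cfsg.Agent.ChevalleyStructure.Elts Cfsg.Agent.ChevalleyStructure.CoxeterGeom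
  Cfsg.Agent.ChevalleyStructure.CoxeterGeomTypes Cfsg.Agent.ChevalleyStructure.NPerm
open Cfsg.Agent.ChevalleyStructure.GraphSymm (symmD4a)
open Cfsg.Agent.Tits.Roots Cfsg.Agent.Tits.Core Cfsg.Agent.Nodes.Reps Cfsg.Agent.Nodes.BNOf
  Cfsg.Agent.Nodes.RGDChev Cfsg.Agent.Nodes.Bruhat Cfsg.Agent.Nodes.OppDec
open Cfsg.Agent.KFacts.RgdAut Cfsg.Agent.KFacts.RgdDiag Cfsg.Agent.KFacts.RgdRigid
  Cfsg.Agent.KFacts.RgdField Cfsg.Agent.KFacts.RgdTau Cfsg.Agent.KFacts.RgdChevCoord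
  Cfsg.Agent.CpAut.RgdUntw Cfsg.Agent.CpAut.RgdConj
open Cfsg.Agent.GpExc.Field (glMap emb coe_emb glMap_xG emb_injective coe_glMap)
open Cfsg.Agent.BpExc.FamExt Cfsg.Agent.BpExc.FamFrame Cfsg.Agent.BpExc.FamField Cfsg.Agent.BpExc.FamUntw
  Cfsg.Agent.BpExc.TowChev
open Cfsg.Agent.BpExc.FamTw.Gr
open Cfsg.Agent.CpAutTri.StdD (s0 spF spF_eq rho_spF sym_cases cartan_s0 vec_spF isRoot_s exists_s vec_pos vec_npos)
open Cfsg.Agent.CpAutTri.Bru (rho eps rho_pos)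
open Cfsg.Agent.CpAut.RgdTwD4 (symS)
open Cfsg.Agent.H469.Exc (KK)
open Cfsg.Agent.H350.Tri (Y4 gr4)
open Cfsg.Agent.H388.Tri.Lift Cfsg.Agent.H388.Tri.PsiAbs

universe u

local notation "hp4" => Cfsg.Agent.Nodes.RGDTwD4.hp

/-! ### the graph automorphism of order 2 -/

section Two

variable {K : Type u} [Field K]

/-- the graph automorphism of order two of `chevD4.group K` -/
noncomputable abbrev gam2 (K : Type u) [Field K] : MulAut ↥(chevD4.group K) := gr (L := K) (hp4).inList symS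

/-- the roots -/
def rho2 : Equiv.Perm (Fin 24) := symS.σ

/-- the signs -/
def eps2 (r : Fin 24) : ℤ := symS.ε r

/-- the permutation of the nodes -/
def s1 : Equiv.Perm (Fin 4) := ⟨![0, 1, 3, 2], ![0, 1, 3, 2], by decide, by decide⟩

theorem gam2_xc (s : Fin 24) (a : K) : gam2 K (xc hp4 (vec chevD4 4 s.val) a) =
    xc hp4 (vec chevD4 4 (rho2 s).val) (((eps2 s : ℤ) : K) * a) := by
  rw [xc_eq, xc_eq]
  exact gr_xg (hp4).inList symS s a

theorem gam2_sq : gam2 K ^ 2 = 1 := gr_sq _ symS (by decide +kernel)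

theorem rho2_pos : ∀ r, 12 ≤ (rho2 r).val ↔ 12 ≤ r.val := by decide +kernel

theorem rho2_spF : ∀ i : Fin 4, rho2 (spF i) = spF (s1 i) := by decide +kernel

theorem cartan_s1 : ∀ i j : Fin 4, cartanOf chevD4 4 (s1 i) (s1 j) = cartanOf chevD4 4 i j := by decide +kernel

set_option backward.isDefEq.respectTransparency false in
theorem sym_all : ∀ σ : Equiv.Perm (Fin 4), (∀ i j, coxeterD4 (σ i) (σ j) = coxeterD4 i j) →
    ∃ (i : Fin 3) (j : Fin 2), σ = s0 ^ i.val * s1 ^ j.val := by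
  decide +kernel

theorem fix_of_maps' {γ : MulAut ↥(chevD4.group K)} {m : ℕ} (hγ : γ ^ (m + 1) = 1) {H : Subgroup ↥(chevD4.group K)}
    (h : ∀ y ∈ H, γ y ∈ H) : Fix γ H := by
  intro y
  refine ⟨fun hy => ?_, h y⟩
  have h1 : ∀ (j : ℕ), ∀ y ∈ H, (γ ^ j) y ∈ H := by
    intro j
    induction j with
    | zero => intro y hy; exact hy
    | succ j ih => intro y hy; rw [pow_succ, MulAut.mul_apply]; exact ih _ (h y hy)
  have h2 := h1 m _ hy
  rw [← MulAut.mul_apply, ← pow_succ, hγ] at h2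
  exact h2

variable [Finite K] (r : ℕ) [Fact r.Prime] [CharP K r]

include r in
/-- the diagram symmetry and the field automorphism of a graph automorphism -/
theorem tau_of {γ : MulAut ↥(chevD4.group K)} {m : ℕ} (hm : γ ^ (m + 1) = 1) {ρ : Fin 24 → Fin 24} {ε : Fin 24 → ℤ}
    (hγ : ∀ (s : Fin 24) (a : K), γ (xc hp4 (vec chevD4 4 s.val) a) =
      xc hp4 (vec chevD4 4 (ρ s).val) (((ε s : ℤ) : K) * a)) (hpos : ∀ s, 12 ≤ (ρ s).val ↔ 12 ≤ s.val)
    {σ₀ : Equiv.Perm (Fin 4)} (hσ₀ : ∀ i, ρ (spF i) = spF (σ₀ i))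
    (hcar : ∀ i j, cartanOf chevD4 4 (σ₀ i) (σ₀ j) = cartanOf chevD4 4 i j) (h1 : σ₀ 1 = 1) (hε : ε (spF 1) = 1) :
    Tau (TT chevD4 K) (XX chevD4 4 K) (ch hp4) (cartanOf chevD4 4) γ σ₀ (1 : K ≃+* K) := by
  have R := rgd (K := K) hp4 coxeterD4.toCoxeterSystem r
  have hW := finite_W hp4 (coxeterD4.toCoxeterSystem)
  have hG1 : RGD.Sup (XX chevD4 4 K) {x | IsRoot coxeterD4.toCoxeterSystem (hp4).isCartan x} = ⊤ :=
    G1_eq_top hp4 coxeterD4.toCoxeterSystem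
  have C := coords (K := K) hp4 coxeterD4.toCoxeterSystem r
  have H := coroots (K := K) hp4 coxeterD4.toCoxeterSystem r
  obtain ⟨hs, hc⟩ := Cfsg.Agent.CpAut.RgdD4.simple_D4 (F := K)
  have hconn := KFacts.RgdLieCharP.conn_of_simple R hG1 (KFacts.RgdLieCharP.center_eq_bot hc)
  have hmaps : ∀ {S : Set (Fin 4 → ℤ)} (_ : ∀ x ∈ S, ∃ s : Fin 24, x = vec chevD4 4 s.val ∧
      vec chevD4 4 (ρ s).val ∈ S), ∀ y ∈ RGD.Sup (XX chevD4 4 K) S, γ y ∈ RGD.Sup (XX chevD4 4 K) S := by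
    intro S hS y hy
    have key : RGD.Sup (XX chevD4 4 K) S ≤ (RGD.Sup (XX chevD4 4 K) S).comap γ.toMonoidHom := by
      refine RGD.Sup_le fun x hx z hz => ?_
      obtain ⟨s, rfl, hs⟩ := hS x hx
      obtain ⟨a, rfl⟩ := ((C.coord _ (isRoot_s _ s)).mem z).1 hz
      show γ (xc hp4 (vec chevD4 4 s.val) a) ∈ RGD.Sup (XX chevD4 4 K) S
      rw [hγ]
      exact RGD.le_Sup hs (((C.coord _ (isRoot_s _ _)).mem _).2 ⟨_, rfl⟩)
    exact key hy
  have hU : Fix γ (RGD.Sup (XX chevD4 4 K) (RGD.Pos coxeterD4.toCoxeterSystem (hp4).isCartan)) := by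
    refine fix_of_maps' hm fun y hy => hmaps ?_ y hy
    rintro x ⟨hx, hx0⟩
    obtain ⟨s, rfl⟩ := exists_s _ hx
    refine ⟨s, rfl, isRoot_s _ _, ?_⟩
    exact (vec_pos _).2 ((hpos s).2 ((vec_pos s).1 hx0))
  have hUN : Fix γ (UN coxeterD4.toCoxeterSystem (hp4).isCartan (XX chevD4 4 K)) := by
    refine fix_of_maps' hm fun y hy => hmaps ?_ y hy
    rintro x ⟨hx, hx0⟩
    obtain ⟨s, rfl⟩ := exists_s _ hx
    refine ⟨s, rfl, isRoot_s _ _, ?_⟩
    have h1 := (vec_npos s).1 hx0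
    have h2 := hpos s
    exact (vec_npos _).2 (by omega)
  obtain ⟨σ, D⟩ := exists_diag R (GG_eq_top (T := TT chevD4 K) hG1) hU hUN
  have hσ : σ = σ₀ := by
    ext i
    congr 1
    by_contra hne
    have hi := isRoot_sr coxeterD4.toCoxeterSystem (hp4).isCartan i
    have hx : xc hp4 (sr i) (1 : K) ∈ XX chevD4 4 K (sr i) := ((C.coord _ hi).mem _).2 ⟨1, rfl⟩
    have hx1 := (C.coord _ hi).ne_one (one_ne_zero (α := K))
    have h2 := (D.pos i _).2 hx
    have h3 : γ (xc hp4 (sr i) (1 : K)) ∈ XX chevD4 4 K (sr (σ₀ i)) := by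
      rw [← vec_spF i, hγ, hσ₀, vec_spF]
      exact ((C.coord _ (isRoot_sr coxeterD4.toCoxeterSystem (hp4).isCartan (σ₀ i))).mem _).2 ⟨_, rfl⟩
    have h4 : sr (σ i) ≠ (sr (σ₀ i) : Fin 4 → ℤ) := by
      intro h5
      have h6 := congrFun h5 (σ i)
      rw [sr_self, sr_ne hne] at h6
      exact one_ne_zero h6
    have h5 := X_inf_X R (isRoot_sr coxeterD4.toCoxeterSystem (hp4).isCartan (σ i))
      (isRoot_sr coxeterD4.toCoxeterSystem (hp4).isCartan (σ₀ i)) h4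
    rw [Subgroup.eq_bot_iff_forall] at h5
    exact hx1 (γ.injective (by rw [h5 _ ⟨h2, h3⟩, map_one]))
  subst hσ
  obtain ⟨τ', hτ'⟩ := exists_tau R C H hconn D hcar
  have hr1 := isRoot_sr coxeterD4.toCoxeterSystem (hp4).isCartan (1 : Fin 4)
  obtain ⟨c, hc0, e⟩ := Tau.root R C hτ' hr1
  have e' : ∀ a, c * τ' a = a := by
    intro a
    have h2 := e a
    rw [sr_comp] at h2
    rw [h1, ← vec_spF 1, hγ, hσ₀, h1, hε, Int.cast_one, one_mul] at h2
    exact ((C.coord _ (isRoot_s _ _)).inj h2).symm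
  have hc1 : c = 1 := by
    have := e' 1
    rwa [map_one, mul_one] at this
  have hττ' : τ' = 1 := by
    ext a
    have := e' a
    rw [hc1, one_mul] at this
    exact this
  rw [hττ'] at hτ'
  exact hτ'

include r in
theorem tau_gam2 : Tau (TT chevD4 K) (XX chevD4 4 K) (ch hp4) (cartanOf chevD4 4) (gam2 K) s1 (1 : K ≃+* K) :=
  tau_of r (m := 1) gam2_sq gam2_xc rho2_pos rho2_spF cartan_s1 (by decide) (by decide +kernel)

include r in
/-- **the frame form of an automorphism** -/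
theorem exists_frame_all (x : MulAut ↥(chevD4.group K)) :
    ∃ (g : ↥(chevD4.group K)) (i j : ℕ) (τ : K ≃+* K),
      Tau (TT chevD4 K) (XX chevD4 4 K) (ch hp4) (cartanOf chevD4 4) (MulAut.conj g * x) (s0 ^ i * s1 ^ j) τ := by
  have R := rgd (K := K) hp4 coxeterD4.toCoxeterSystem r
  have hW := finite_W hp4 (coxeterD4.toCoxeterSystem)
  have hG1 : RGD.Sup (XX chevD4 4 K) {x | IsRoot coxeterD4.toCoxeterSystem (hp4).isCartan x} = ⊤ :=
    G1_eq_top hp4 coxeterD4.toCoxeterSystem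
  have hG := GG_eq_top (T := TT chevD4 K) hG1
  have C := coords (K := K) hp4 coxeterD4.toCoxeterSystem r
  have H := coroots (K := K) hp4 coxeterD4.toCoxeterSystem r
  obtain ⟨hs, hc⟩ := Cfsg.Agent.CpAut.RgdD4.simple_D4 (F := K)
  have hconn := KFacts.RgdLieCharP.conn_of_simple R hG1 (KFacts.RgdLieCharP.center_eq_bot hc)
  obtain ⟨g, h1, h2, σ, D⟩ := exists_frame_any R hG x
  obtain ⟨i, j, rfl⟩ := sym_all σ (D.matrix R)
  have hA := (((tau_gam (K := K) r).pow i.val).mul ((tau_gam2 (K := K) r).pow j.val)).cartan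
  obtain ⟨τ, hτ⟩ := exists_tau R C H hconn D hA
  exact ⟨g, i.val, j.val, τ, hτ⟩

end Two

/-! ### the automorphisms induced by the fixed points of the Frobenius automorphism -/

section Delta

variable {r : ℕ} [Fact r.Prime] {F : Type} [Field F] [Fintype F] [CharP F r] {n : ℕ} (f : F →+* KK r)

/-- `δ` is induced by a fixed point -/
def IsD (n : ℕ) (f : F →+* KK r) (δ : MulAut ↥(chevD4.group F)) : Prop :=
  ∃ y : Y4 r, phi chevD4 (KK r) r n y = y ∧ ∀ a, emb (hp4).inList f (δ a) = y * emb (hp4).inList f a * y⁻¹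

/-- the group of the automorphisms induced by fixed points -/
def Del (n : ℕ) (f : F →+* KK r) : Subgroup (MulAut ↥(chevD4.group F)) where
  carrier := {δ | IsD n f δ}
  mul_mem' := by
    rintro a b ⟨y, hy, h⟩ ⟨z, hz, h'⟩
    refine ⟨y * z, by rw [map_mul, hy, hz], fun c => ?_⟩
    rw [MulAut.mul_apply, h, h']
    group
  one_mem' := ⟨1, map_one _, fun a => by rw [MulAut.one_apply, one_mul, inv_one, mul_one]⟩
  inv_mem' := by
    rintro a ⟨y, hy, h⟩
    refine ⟨y⁻¹, by rw [map_inv, hy], fun c => ?_⟩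
    have h1 := h (a⁻¹ c)
    rw [MulAut.apply_inv_self] at h1
    rw [h1]
    group

theorem mem_Del {δ : MulAut ↥(chevD4.group F)} : δ ∈ Del n f ↔ IsD n f δ := Iff.rfl

theorem one_of_comm {z : Y4 r} (hz : ∀ a, z * emb (hp4).inList f a = emb (hp4).inList f a * z) : z = 1 :=
  eq_one_of_comm hp4 (locFin_of_isAlgebraic r _) r f (center_bot _) hz

variable (hn : Nat.card F = r ^ n)

include hn in
theorem conj_mem (g : ↥(chevD4.group F)) : MulAut.conj g ∈ Del n f :=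
  ⟨emb (hp4).inList f g, phi_emb hp4 r f hn g, fun a => by rw [MulAut.conj_apply, map_mul, map_mul, map_inv]⟩

/-- a lift commuting with the Frobenius automorphism normalises `Del` -/
theorem norm_Del {x : MulAut ↥(chevD4.group F)} {θ : MulAut (Y4 r)}
    (hx : ∀ a, emb (hp4).inList f (x a) = θ (emb (hp4).inList f a))
    (hc : ∀ y, θ (phi chevD4 (KK r) r n y) = phi chevD4 (KK r) r n (θ y)) {δ : MulAut ↥(chevD4.group F)}
    (hδ : δ ∈ Del n f) : x * δ * x⁻¹ ∈ Del n f := by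
  obtain ⟨y, hy, h⟩ := hδ
  refine ⟨θ y, by rw [← hc, hy], fun a => ?_⟩
  rw [MulAut.mul_apply, MulAut.mul_apply, hx, h, map_mul, map_mul, map_inv, ← hx, MulAut.apply_inv_self]

include hn in
/-- the element inducing an automorphism is a fixed point -/
theorem fix_of_ind {x : MulAut ↥(chevD4.group F)} {y : Y4 r}
    (h : ∀ a, emb (hp4).inList f (x a) = y * emb (hp4).inList f a * y⁻¹) : phi chevD4 (KK r) r n y = y := by
  have h1 : y⁻¹ * phi chevD4 (KK r) r n y = 1 := by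
    refine one_of_comm f fun a => ?_
    have h2 := congrArg (phi chevD4 (KK r) r n) (h a)
    rw [phi_emb hp4 r f hn, map_mul, map_mul, map_inv, phi_emb hp4 r f hn, h] at h2
    generalize phi chevD4 (KK r) r n y = z at h2 ⊢
    generalize emb (hp4).inList f a = b at h2 ⊢
    have h3 : b = y⁻¹ * (z * b * z⁻¹) * y := by rw [← h2]; group
    calc y⁻¹ * z * b = y⁻¹ * (z * b * z⁻¹) * y * (y⁻¹ * z) := by group
      _ = b * (y⁻¹ * z) := by rw [← h3]
  exact (inv_mul_eq_one.1 h1).symm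

/-- the field automorphisms -/
def PhiS (F : Type) [Field F] : Set (MulAut ↥(chevD4.group F)) := Set.range fun τ : F ≃+* F => fld chevD4 τ

theorem exists_ext_field (τ : F ≃+* F) : ∃ m : ℕ, ∀ a, frb (KK r) r m (f a) = f (τ a) := by
  obtain ⟨m, hm⟩ := exists_pow_eq r τ
  exact ⟨m, fun a => by rw [frb_apply, hm, map_pow]⟩

include hn in
/-- **The decomposition.** -/
theorem exists_dec (x : MulAut ↥(chevD4.group F)) : ∃ δ ∈ Del n f, ∃ g ∈ PhiS F, ∃ i j : ℕ,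
    x = δ * g * gam F ^ i * gam2 F ^ j := by
  have R := rgd (K := F) hp4 coxeterD4.toCoxeterSystem r
  have hG1 : RGD.Sup (XX chevD4 4 F) {x | IsRoot coxeterD4.toCoxeterSystem (hp4).isCartan x} = ⊤ :=
    G1_eq_top hp4 coxeterD4.toCoxeterSystem
  obtain ⟨hs, hc⟩ := Cfsg.Agent.CpAut.RgdD4.simple_D4 (F := F)
  have hconn := KFacts.RgdLieCharP.conn_of_simple R hG1 (KFacts.RgdLieCharP.center_eq_bot hc)
  obtain ⟨g, i, j, τ, S⟩ := exists_frame_all r x
  have S2 := S.mul (((tau_gam (K := F) r).pow i).mul ((tau_gam2 (K := F) r).pow j)).inv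
  rw [mul_inv_cancel, one_pow, one_pow, one_mul, inv_one, mul_one] at S2
  obtain ⟨m, hm⟩ := exists_ext_field f τ
  obtain ⟨t, ht, et⟩ := exists_ext hp4 f r hconn inv_D4 two_ne_zero
    (fun c _ => IsAlgClosed.exists_pow_nat_eq (f c) two_pos) S2 hm
  obtain ⟨δ, hδ⟩ : ∃ δ, δ = MulAut.conj g * x * (gam F ^ i * gam2 F ^ j)⁻¹ * (fld chevD4 τ)⁻¹ := ⟨_, rfl⟩
  have h1 : ∀ a, emb (hp4).inList f (δ a) = t * emb (hp4).inList f a * t⁻¹ := by
    intro a
    have h2 := et ((fld chevD4 τ)⁻¹ a)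
    rw [hδ, MulAut.mul_apply, h2, fld_emb hp4 f hm, MulAut.apply_inv_self]
  have h2 : δ ∈ Del n f := ⟨t, fix_of_ind f hn h1, h1⟩
  refine ⟨(MulAut.conj g)⁻¹ * δ, mul_mem (inv_mem (conj_mem f hn g)) h2, fld chevD4 τ, ⟨τ, rfl⟩, i, j, ?_⟩
  rw [hδ]
  group

include hn in
/-- the squares -/
theorem sq_Del {δ : MulAut ↥(chevD4.group F)} (hδ : δ ∈ Del n f) : ∃ b, δ * δ = MulAut.conj b := by
  have hcard : Fintype.card F = r ^ n := by rw [← Nat.card_eq_fintype_card, hn]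
  obtain ⟨y, hy, h⟩ := hδ
  have hphi : ∀ y, H129.TorusUntw.phi chevD4 (KK r) r n y = phi chevD4 (KK r) r n y := by
    intro y
    apply Subtype.ext
    rw [H129.TorusUntw.coe_phi]
    apply Units.ext
    rw [phi_coe, coe_glMap]
    ext i j
    rw [Matrix.map_apply, Matrix.map_apply, iterateFrobenius_def]
  obtain ⟨x, t, ht, rfl⟩ := H129.TorusUntw.fix_split hp4 f hcard ((hphi y).trans hy)
  have hx : phi chevD4 (KK r) r n (emb (hp4).inList f x) = emb (hp4).inList f x := phi_emb hp4 r f hn x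
  have hf : phi chevD4 (KK r) r n t = t := by
    rw [map_mul, hx] at hy
    exact mul_left_cancel hy
  obtain ⟨z, hz⟩ := H129.TorusUntw.fix_pow hp4 coxeterD4.toCoxeterSystem f hcard inv_D4 two_ne_zero ht
    ((hphi t).trans hf)
  have h1 : ∀ a, emb (hp4).inList f (((MulAut.conj x)⁻¹ * δ) a) = t * emb (hp4).inList f a * t⁻¹ := by
    intro a
    rw [MulAut.mul_apply, ← map_inv, MulAut.conj_apply, inv_inv, map_mul, map_mul, map_inv, h]
    group
  refine ⟨x * ((MulAut.conj x)⁻¹ * δ) x * z, ?_⟩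
  apply MulEquiv.ext
  intro a
  apply emb_injective (hp4).inList f
  rw [MulAut.mul_apply, h, h, MulAut.conj_apply, map_mul, map_mul, map_inv, map_mul, map_mul, hz, h1]
  group

end Delta

/-! ### the range of `Ψ` -/

section Psi

open Cfsg.Agent.LieClassical.OrthCore Cfsg.Agent.LieClassical.OrthTrans
  Cfsg.Agent.LieClassical.OrthSimple Cfsg.Agent.ClassicalGeometry.OrthAut1
  Cfsg.Agent.ClassicalGeometry.OrthSemi Cfsg.Agent.H198.Classes
  Cfsg.Agent.LieClassical.QuadForms Cfsg.Agent.H198.ClassesPlus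
  Cfsg.Agent.ClassicalGeometry.TrialityOct Cfsg.Agent.ClassicalGeometry.Triality
  Cfsg.Agent.ClassicalGeometry.TrialitySpaces Cfsg.Agent.H198.TriBase Cfsg.Agent.H198.TriAut
  Cfsg.Agent.H198.TriTC

variable {F : Type} [Field F] [Finite F] (hG : Good (plusForm 4 F))

include hG in
theorem conj_mem_KT (p : P8 F) : MulAut.conj p ∈ KT F := by
  obtain ⟨s, rfl⟩ := QuotientGroup.mk_surjective p
  obtain ⟨g₁, g₂, h⟩ := exists_triple hG s.2
  refine ⟨gamO _ ⟨s, E_le_O s.2⟩, ⟨_, _, triS_of_triE h⟩, ?_⟩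
  ext y
  obtain ⟨t, rfl⟩ := QuotientGroup.mk_surjective y
  rw [Psi_mk, MulAut.conj_apply]
  have h1 : conjE (plusForm 4 F) (gamO _ ⟨s, E_le_O s.2⟩) t = s * t * s⁻¹ := by
    apply Subtype.ext
    rw [coe_conjE]
    rfl
  rw [h1]
  rfl

theorem isS3 : haveI := KT_normal hG
    IsS3 (QuotientGroup.mk' (KT F) (rho hG)) (QuotientGroup.mk' (KT F) (Psi (plusForm 4 F) (kapG F))) := by
  have hNor := KT_normal hG
  set π := QuotientGroup.mk' (KT F) with hπ
  have hker : ∀ y, π y = 1 ↔ y ∈ KT F := fun y => QuotientGroup.eq_one_iff y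
  have hT : ∀ N ∈ T1 F, π (Psi (plusForm 4 F) N) = 1 := fun N hN => (hker _).2 ⟨N, hN, rfl⟩
  have kk : π (Psi _ (kapG F)) * π (Psi _ (kapG F)) = 1 := by
    rw [← map_mul π (Psi _ (kapG F)) (Psi _ (kapG F)), ← map_mul (Psi (plusForm 4 F)) (kapG F) (kapG F), kapG_mul_kapG, map_one (Psi (plusForm 4 F)),
      map_one π]
  refine ⟨?_, ?_, kk, ?_, ?_⟩
  · rw [← map_pow π (rho hG) 3, rho_pow_three, map_one π]
  · intro h
    obtain ⟨N, -, h1⟩ := (hker _).1 h
    exact rho_not_mem hG (MonoidHom.mem_range.2 ⟨N, h1⟩)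
  · rw [← map_mul π (Psi _ (kapG F)) (rho hG), ← map_mul π (Psi _ (kapG F) * rho hG) (Psi _ (kapG F)),
      H198.TriInn.kap_rho_kap hG, map_inv π (rho hG)]
  · intro q
    obtain ⟨y, rfl⟩ := QuotientGroup.mk'_surjective (KT F) q
    obtain ⟨i, N, -, h1⟩ := aut_cases hG y
    have h2 : π y = π (rho hG) ^ i * π (Psi _ N) := by
      rw [h1, map_mul π (rho hG ^ i) (Psi _ N), map_pow π (rho hG) i]
    refine ⟨i, ?_⟩
    by_cases hN : N ∈ T1 F
    · left
      rw [h2, hT N hN, mul_one]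
    · right
      have h3 := hT _ (not_mem_T1 hG hN)
      rw [map_mul (Psi (plusForm 4 F)) N (kapG F), map_mul π (Psi _ N) (Psi _ (kapG F))] at h3
      have h4 : π (Psi _ N) = π (Psi _ (kapG F)) := by
        rw [eq_inv_of_mul_eq_one_left h3]
        exact inv_eq_of_mul_eq_one_right kk
      rw [h2, h4]

variable {r : ℕ} [Fact r.Prime] [CharP F r] {n : ℕ} (hn : Nat.card F = r ^ n) (f : F →+* KK r)
  (e : ↥(chevD4.group F) ≃* P8 F)

include hG hn in
theorem psi_iff' {x : MulAut ↥(chevD4.group F)} (hx : x ^ 3 = 1) {i m : ℕ} {y : Y4 r}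
    (h : ∀ a, emb (hp4).inList f (x a) =
      y * (gr4 r ^ i) (phi chevD4 (KK r) r m (emb (hp4).inList f a)) * y⁻¹) :
    MulAut.congr e x ∈ (Psi (plusForm 4 F)).range ↔ 3 ∣ i := by
  have := Fintype.ofFinite F
  have hNor := KT_normal hG
  have hPR : PerfectRing F r := PerfectField.toPerfectRing r
  obtain ⟨π, hπ⟩ : ∃ π : MulAut ↥(chevD4.group F) →* MulAut (P8 F) ⧸ KT F,
    π = (QuotientGroup.mk' (KT F)).comp (MulAut.congr e).toMonoidHom := ⟨_, rfl⟩
  have hπx : ∀ x, π x = QuotientGroup.mk' (KT F) (MulAut.congr e x) := fun x => by rw [hπ]; rfl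
  have hsurj : Function.Surjective π := by
    rw [hπ]
    exact (QuotientGroup.mk'_surjective _).comp (MulAut.congr e).surjective
  have S := isS3 hG
  have hinn : ∀ b, π (MulAut.conj b) = 1 := by
    intro b
    rw [hπx]
    refine (QuotientGroup.eq_one_iff _).2 ?_
    have h1 : MulAut.congr e (MulAut.conj b) = MulAut.conj (e b) := by
      ext p
      show e (MulAut.conj b (e.symm p)) = _
      rw [MulAut.conj_apply, MulAut.conj_apply, map_mul, map_mul, map_inv, e.apply_symm_apply]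
    rw [h1]
    exact conj_mem_KT hG _
  -- the standard automorphisms and their lifts
  have lgam : ∀ a, emb (hp4).inList f (gam F a) = gam (KK r) (emb (hp4).inList f a) := emb_gam f
  have lgam2 : ∀ a, emb (hp4).inList f (gam2 F a) = gam2 (KK r) (emb (hp4).inList f a) := by
    intro a
    apply Subtype.ext
    rw [coe_emb, coe_gr, coe_gr, map_mul, map_mul, map_inv, glMap_P, coe_emb]
  have hΔ2 : ∀ δ ∈ Del n f, π δ * π δ = 1 := by
    intro δ hδ
    obtain ⟨b, hb⟩ := sq_Del f hn hδ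
    rw [← map_mul, hb, hinn]
  have hff : ∀ g ∈ PhiS F, ∀ g' ∈ PhiS F, g * g' = g' * g := by
    rintro _ ⟨τ, rfl⟩ _ ⟨τ', rfl⟩
    show fld chevD4 τ * fld chevD4 τ' = fld chevD4 τ' * fld chevD4 τ
    rw [← fld_mul, ← fld_mul]
    congr 1
    obtain ⟨j, hj⟩ := exists_pow_eq r τ
    obtain ⟨j', hj'⟩ := exists_pow_eq r τ'
    ext a
    rw [RingAut.mul_apply, RingAut.mul_apply, hj, hj', hj', hj, ← pow_mul, ← pow_mul, mul_comm]
  have hfa : ∀ g ∈ PhiS F, g * gam F = gam F * g := by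
    rintro _ ⟨τ, rfl⟩
    exact (gr_mul_fld _ _ τ).symm
  have hfb : ∀ g ∈ PhiS F, g * gam2 F = gam2 F * g := by
    rintro _ ⟨τ, rfl⟩
    exact (gr_mul_fld _ _ τ).symm
  have hΔf : ∀ g ∈ PhiS F, ∀ δ ∈ Del n f, g * δ * g⁻¹ ∈ Del n f := by
    rintro _ ⟨τ, rfl⟩ δ hδ
    obtain ⟨m, hm⟩ := exists_ext_field f τ
    refine norm_Del f (x := fld chevD4 τ) (θ := fld chevD4 (frb (KK r) r m))
      (fun a => (fld_emb hp4 f hm a).symm) (fun y => ?_) hδ
    show fld chevD4 _ (fld chevD4 _ y) = fld chevD4 _ (fld chevD4 _ y)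
    rw [← MulAut.mul_apply, ← MulAut.mul_apply, ← fld_mul, ← fld_mul]
    congr 2
    ext a
    rw [RingAut.mul_apply, RingAut.mul_apply, frb_apply, frb_apply, frb_apply, frb_apply, ← pow_mul, ← pow_mul,
      mul_comm]
  have hΔa : ∀ δ ∈ Del n f, gam F * δ * (gam F)⁻¹ ∈ Del n f := fun δ hδ =>
    norm_Del f lgam (fun y => gr_fld _ _ _ y) hδ
  have hΔb : ∀ δ ∈ Del n f, gam2 F * δ * (gam2 F)⁻¹ ∈ Del n f := fun δ hδ =>
    norm_Del f lgam2 (fun y => gr_fld _ _ _ y) hδ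
  -- `x`
  have hfr : ∀ a, frb (KK r) r m (f a) = f (frb F r m a) := fun a => by rw [frb_apply, frb_apply, map_pow]
  obtain ⟨δ, hδ⟩ : ∃ δ, δ = x * (fld chevD4 (frb F r m) * gam F ^ i)⁻¹ := ⟨_, rfl⟩
  have hxd : x = δ * fld chevD4 (frb F r m) * gam F ^ i := by rw [hδ]; group
  have h1 : ∀ b, emb (hp4).inList f (δ b) = y * emb (hp4).inList f b * y⁻¹ := by
    intro b
    obtain ⟨a, rfl⟩ := (fld chevD4 (frb F r m) * gam F ^ i).surjective b
    rw [hδ, MulAut.mul_apply, MulAut.inv_apply_self, h, MulAut.mul_apply, ← fld_emb hp4 f hfr, emb_gam_pow,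
      fld_gam_pow]
    rfl
  have hδΔ : δ ∈ Del n f := ⟨y, fix_of_ind f hn h1, h1⟩
  have key := PsiAbs.main hsurj S (exists_dec f hn) hff hfa hfb hΔf hΔa hΔb hΔ2 gam_cube hδΔ
    (f := fld chevD4 (frb F r m)) ⟨_, rfl⟩ (i := i) (by rw [← hxd, hx])
  rw [← hxd] at key
  rw [← key.1]
  constructor
  · rintro ⟨M, hM⟩
    rw [hπx, ← hM]
    by_cases hMT : M ∈ T1 F
    · exact (QuotientGroup.eq_one_iff _).2 ⟨M, hMT, rfl⟩
    · exfalso
      apply key.2
      rw [hπx, ← hM]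
      have h3 : QuotientGroup.mk' (KT F) (Psi (plusForm 4 F) (M * kapG F)) = 1 :=
        (QuotientGroup.eq_one_iff _).2 ⟨_, not_mem_T1 hG hMT, rfl⟩
      rw [map_mul (Psi (plusForm 4 F)) M (kapG F), map_mul (QuotientGroup.mk' (KT F)) (Psi _ M) (Psi _ (kapG F))] at h3
      rw [eq_inv_of_mul_eq_one_left h3]
      exact inv_eq_of_mul_eq_one_right S.k2
  · intro h2
    rw [hπx] at h2
    obtain ⟨M, -, hM⟩ := (QuotientGroup.eq_one_iff _).1 h2
    exact ⟨M, hM⟩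

/-- **TRI-10, `Ψ` part**: an automorphism `x` of `D₄(q)` with `x ^ 3 = 1` which lifts to `conj y * gr ^ i * phi m` is in the
range of `Ψ` (the semisimilarities) iff `3 ∣ i`. -/
theorem psi_iff {F : Type} [Field F] [Fintype F] {r : ℕ} [Fact r.Prime] [CharP F r] {n : ℕ}
    (hn : Fintype.card F = r ^ n) (f : F →+* KK r) (e : ↥(chevD4.group F) ≃* P8 F)
    {x : MulAut ↥(chevD4.group F)} (hx : x ^ 3 = 1) {i m : ℕ} {y : Y4 r}
    (h : ∀ a, emb Cfsg.Agent.Nodes.RGDTwD4.hp.inList f (x a) =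
      y * (gr4 r ^ i) (phi chevD4 (KK r) r m (emb Cfsg.Agent.Nodes.RGDTwD4.hp.inList f a)) * y⁻¹) :
    MulAut.congr e x ∈ (Psi (plusForm 4 F)).range ↔ 3 ∣ i :=
  psi_iff' (Cfsg.Agent.AutOrth.Main.good_plus (by norm_num)) (by rw [Nat.card_eq_fintype_card, hn]) f e hx h

/-- `psi_iff` for `m = 0` -/
theorem psi_iff_zero {F : Type} [Field F] [Fintype F] {r : ℕ} [Fact r.Prime] [CharP F r] {n : ℕ}
    (hn : Fintype.card F = r ^ n) (f : F →+* KK r) (e : ↥(chevD4.group F) ≃* P8 F)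
    {x : MulAut ↥(chevD4.group F)} (hx : x ^ 3 = 1) {i : ℕ} {y : Y4 r}
    (h : ∀ a, emb Cfsg.Agent.Nodes.RGDTwD4.hp.inList f (x a) =
      y * (gr4 r ^ i) (emb Cfsg.Agent.Nodes.RGDTwD4.hp.inList f a) * y⁻¹) :
    MulAut.congr e x ∈ (Psi (plusForm 4 F)).range ↔ 3 ∣ i := by
  refine psi_iff hn f e hx (m := 0) (y := y) fun a => ?_
  have h1 : phi chevD4 (KK r) r 0 = 1 := by
    have h2 : frb (KK r) r 0 = 1 := by
      ext a
      rw [frb_apply, pow_zero, pow_one]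
      rfl
    show fld chevD4 (frb (KK r) r 0) = 1
    rw [h2, fld_one]
  rw [h1, MulAut.one_apply, h]

end Psi

end Cfsg.Agent.H388.Tri.PsiR
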